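import Cfsg.Agent.KFacts.ChevTwoSysInst
import Cfsg.Agent.H83.Count
import Cfsg.Agent.H83.RedESix
import Cfsg.Agent.H83.RedESeven
import Cfsg.Agent.H83.RedEEight
import Cfsg.Agent.H81.InvGen

/-!
Class representatives of the involutions of `E6(F)`, `E7(F)`, `E8(F)`, `F` a finite field of characteristic two: every
involution is conjugate to a product of root elements `x_j(1)`, `j` in a set of pairwise orthogonal SIMPLE roots
(S3010, TEAM SIDKI, piece (D)).
-/

set_option autoImplicit false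

namespace Cfsg.Agent.H167.SK.Reps

open Cfsg.Lie Cfsg.Agent.ChevalleyStructure Cfsg.Agent.ChevalleyStructure.Elts Cfsg.Agent.ChevalleyStructure.RootVec
  Cfsg.Agent.ChevalleyStructure.RootCombGood Cfsg.Agent.H83.ChevInv Cfsg.Agent.H83.OrthRed Cfsg.Agent.H83.RedGen
  Cfsg.Agent.KFacts.ChevTwoInst Cfsg.Agent.KFacts.ChevTwo Cfsg.Agent.Tits.Core Cfsg.Agent.Nodes.BNOf
  Cfsg.Agent.ChevalleyStructure.CoxeterGeom Cfsg.Agent.Tits.Roots Cfsg.Agent.Nodes.RGDChev Cfsg.Agent.H81.InvGen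

universe u

variable {D : ChevalleyDatum} {l : ℕ} {M : CoxeterMatrix (Fin l)}

theorem coe_prod (hp : Cfsg.Agent.Nodes.RGDChev.IsType D l M) {K : Type u} [Field K] (J : List (Fin l)) :
    (((J.map fun j => eg hp K (sr j) 1).prod : ↥(D.group K)) : GL D.Idx K) =
      PX hp.inList K (J.map fun j : Fin l => D.simple (j : ℕ)) := by
  induction J with
  | nil => rfl
  | cons j J ih =>
    rw [List.map_cons, List.prod_cons, List.map_cons, PX_cons, Subgroup.coe_mul, ih, coe_eg, ev_sr hp]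

/-- the general statement: `T` lists, for each representative `R`, a set of simple roots and a word -/
theorem exists_simple (hp : Cfsg.Agent.Nodes.RGDChev.IsType D l M) {K : Type u} [Field K] [CharP K 2] [Finite K]
    {certs : List Cert} {words reps : List (List ℕ)} {n : ℕ} (h : allchk D certs words reps n = true)
    (Js : List (List (Fin l)))
    (hJ : ∀ R ∈ reps, R = [] ∨ ∃ J ∈ Js, Eqv hp.inList K (J.map fun j : Fin l => D.simple (j : ℕ)) R)
    (g : ↥(D.group K)) (hg : orderOf g = 2) :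
    ∃ J ∈ Js, ∃ x : ↥(D.group K), x * g * x⁻¹ = (J.map fun j => eg hp K (sr j) 1).prod := by
  have hgg : (g : GL D.Idx K) * g = 1 := by
    have h3 := pow_orderOf_eq_one g
    rw [hg, pow_two] at h3
    exact congrArg Subtype.val h3
  obtain ⟨R, hR, k, hk, e⟩ := Cfsg.Agent.H83.Count.exists_rep hp h g.2 hgg
  rcases hJ R hR with rfl | ⟨J, hJ1, y, hy, e2⟩
  · exfalso
    rw [PX_nil] at e
    have h4 : (g : GL D.Idx K) = 1 := by
      have h5 : k * (g : GL D.Idx K) = k := by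
        rw [← mul_inv_eq_one]; exact e
      exact mul_eq_left.1 h5
    have h5 : g = 1 := Subtype.ext h4
    rw [h5, orderOf_one] at hg
    exact absurd hg (by norm_num)
  · refine ⟨J, hJ1, ⟨y⁻¹ * k, mul_mem (inv_mem hy) hk⟩, ?_⟩
    apply Subtype.ext
    rw [coe_prod]
    show y⁻¹ * k * (g : GL D.Idx K) * (y⁻¹ * k)⁻¹ = _
    have e3 : PX hp.inList K (J.map fun j : Fin l => D.simple (j : ℕ)) = y⁻¹ * (k * (g : GL D.Idx K) * k⁻¹) * y := by
      rw [e, ← e2]; group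
    rw [e3]
    group

variable {F : Type u} [Field F] [CharP F 2] [Finite F]

/-- the lists of simple roots for `E6` -/
def J6 : List (List (Fin 6)) := [[0], [0, 1], [0, 1, 4]]

/-- the lists of simple roots for `E7` -/
def J7 : List (List (Fin 7)) := [[0], [0, 1], [1, 4, 6], [0, 1, 4], [1, 4, 6, 0]]

/-- the lists of simple roots for `E8` -/
def J8 : List (List (Fin 8)) := [[0], [0, 1], [0, 1, 4], [0, 1, 4, 6]]

/-- the simple roots in the lists are pairwise orthogonal -/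
theorem orth6 : ∀ J ∈ J6, J ≠ [] ∧ J.Pairwise fun i j => i ≠ j ∧ chevE6.cartan i (chevE6.simple j) = 0 := by
  decide +kernel

theorem orth7 : ∀ J ∈ J7, J ≠ [] ∧ J.Pairwise fun i j => i ≠ j ∧ chevE7.cartan i (chevE7.simple j) = 0 := by
  decide +kernel

theorem orth8 : ∀ J ∈ J8, J ≠ [] ∧ J.Pairwise fun i j => i ≠ j ∧ chevE8.cartan i (chevE8.simple j) = 0 := by
  decide +kernel

/-- **Involutions of `E6(F)`, characteristic two.** -/
theorem reps_E6 {M : CoxeterMatrix (Fin 6)} (hp : Cfsg.Agent.Nodes.RGDChev.IsType chevE6 6 M) (g : ↥(chevE6.group F))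
    (hg : orderOf g = 2) :
    ∃ J ∈ J6, ∃ x : ↥(chevE6.group F), x * g * x⁻¹ = (J.map fun j => eg hp F (sr j) 1).prod := by
  refine exists_simple hp Cfsg.Agent.H83.RedESix.allchk_eq J6 ?_ g hg
  intro R hR
  simp only [Cfsg.Agent.H83.RedESix.reps, List.mem_cons, List.not_mem_nil, or_false] at hR
  rcases hR with rfl | rfl | rfl | rfl
  · exact Or.inl rfl
  · exact Or.inr ⟨[0], by decide, eqv_of_word (w := [1, 3, 4, 5, 2, 3, 4, 1, 3, 2])
      (by decide +kernel) (by decide +kernel) (by decide +kernel)⟩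
  · exact Or.inr ⟨[0, 1], by decide, eqv_of_word (w := [0, 2, 3, 4, 1, 3, 4, 5, 2, 3, 4, 1, 3, 2])
      (by decide +kernel) (by decide +kernel) (by decide +kernel)⟩
  · exact Or.inr ⟨[0, 1, 4], by decide, eqv_of_word (w := [2, 3, 0, 2, 3, 4, 1, 3, 4, 5, 2, 3, 4, 1, 3, 2])
      (by decide +kernel) (by decide +kernel) (by decide +kernel)⟩

/-- **Involutions of `E7(F)`, characteristic two.** -/
theorem reps_E7 {M : CoxeterMatrix (Fin 7)} (hp : Cfsg.Agent.Nodes.RGDChev.IsType chevE7 7 M) (g : ↥(chevE7.group F))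
    (hg : orderOf g = 2) :
    ∃ J ∈ J7, ∃ x : ↥(chevE7.group F), x * g * x⁻¹ = (J.map fun j => eg hp F (sr j) 1).prod := by
  refine exists_simple hp Cfsg.Agent.H83.RedESeven.allchk_eq J7 ?_ g hg
  intro R hR
  simp only [Cfsg.Agent.H83.RedESeven.reps, List.mem_cons, List.not_mem_nil, or_false] at hR
  rcases hR with rfl | rfl | rfl | rfl | rfl | rfl
  · exact Or.inl rfl
  · exact Or.inr ⟨[0], by decide, eqv_of_word (w := [0, 2, 3, 4, 5, 6, 1, 3, 4, 5, 2, 3, 4, 1, 3, 2])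
      (by decide +kernel) (by decide +kernel) (by decide +kernel)⟩
  · exact Or.inr ⟨[0, 1], by decide, eqv_of_word
      (w := [5, 4, 3, 2, 1, 3, 4, 5, 0, 2, 3, 4, 5, 6, 1, 3, 4, 5, 2, 3, 4, 1, 3, 2])
      (by decide +kernel) (by decide +kernel) (by decide +kernel)⟩
  · exact Or.inr ⟨[1, 4, 6], by decide, eqv_of_word
      (w := [5, 6, 4, 5, 3, 4, 1, 3, 0, 2, 3, 4, 5, 6, 1, 3, 4, 5, 2, 3, 4, 0, 2, 3])
      (by decide +kernel) (by decide +kernel) (by decide +kernel)⟩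
  · exact Or.inr ⟨[0, 1, 4], by decide, eqv_of_word
      (w := [3, 2, 1, 3, 5, 4, 3, 2, 1, 3, 4, 5, 0, 2, 3, 4, 5, 6, 1, 3, 4, 5, 2, 3, 4, 1, 3, 2])
      (by decide +kernel) (by decide +kernel) (by decide +kernel)⟩
  · exact Or.inr ⟨[1, 4, 6, 0], by decide, eqv_of_word
      (w := [3, 4, 2, 1, 5, 6, 4, 5, 3, 4, 1, 3, 0, 2, 3, 4, 5, 6, 1, 3, 4, 5, 2, 3, 4, 0, 2, 3])
      (by decide +kernel) (by decide +kernel) (by decide +kernel)⟩

/-- **Involutions of `E8(F)`, characteristic two.** -/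
theorem reps_E8 {M : CoxeterMatrix (Fin 8)} (hp : Cfsg.Agent.Nodes.RGDChev.IsType chevE8 8 M) (g : ↥(chevE8.group F))
    (hg : orderOf g = 2) :
    ∃ J ∈ J8, ∃ x : ↥(chevE8.group F), x * g * x⁻¹ = (J.map fun j => eg hp F (sr j) 1).prod := by
  refine exists_simple hp Cfsg.Agent.H83.RedEEight.allchk_eq J8 ?_ g hg
  intro R hR
  simp only [Cfsg.Agent.H83.RedEEight.reps, List.mem_cons, List.not_mem_nil, or_false] at hR
  rcases hR with rfl | rfl | rfl | rfl | rfl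
  · exact Or.inl rfl
  · exact Or.inr ⟨[0], by decide, eqv_of_word
      (w := [7, 6, 5, 4, 3, 2, 1, 3, 4, 5, 6, 7, 0, 2, 3, 4, 5, 6, 1, 3, 4, 5, 2, 3, 4, 1, 3, 2])
      (by decide +kernel) (by decide +kernel) (by decide +kernel)⟩
  · exact Or.inr ⟨[0, 1], by decide, eqv_of_word
      (w := [0, 2, 3, 4, 5, 1, 3, 4, 2, 3, 0, 2, 1, 3, 4, 5, 7, 6, 5, 4, 3, 2, 1, 3, 4, 5, 6, 7, 0, 2, 3, 4, 5, 6, 1,
        3, 4, 5, 2, 3, 4, 1, 3, 2])
      (by decide +kernel) (by decide +kernel) (by decide +kernel)⟩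
  · exact Or.inr ⟨[0, 1, 4], by decide, eqv_of_word
      (w := [5, 6, 4, 5, 3, 4, 2, 3, 0, 2, 3, 4, 5, 1, 3, 4, 2, 3, 0, 2, 1, 3, 4, 5, 7, 6, 5, 4, 3, 2, 1, 3, 4, 5, 6,
        7, 0, 2, 3, 4, 5, 6, 1, 3, 4, 5, 2, 3, 4, 1, 3, 2])
      (by decide +kernel) (by decide +kernel) (by decide +kernel)⟩
  · exact Or.inr ⟨[0, 1, 4, 6], by decide, eqv_of_word
      (w := [3, 4, 1, 3, 5, 6, 4, 5, 3, 4, 2, 3, 0, 2, 3, 4, 5, 1, 3, 4, 2, 3, 0, 2, 1, 3, 4, 5, 7, 6, 5, 4, 3, 2, 1,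
        3, 4, 5, 6, 7, 0, 2, 3, 4, 5, 6, 1, 3, 4, 5, 2, 3, 4, 1, 3, 2])
      (by decide +kernel) (by decide +kernel) (by decide +kernel)⟩

end Cfsg.Agent.H167.SK.Reps
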